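import Cfsg.Agent.H405.U33.Base
import Cfsg.Agent.H698.U33.Clo.Dat

/-!
# S5525, box H6: refutation of the candidates 12 to 23 (helper405; candidates of helper919)
-/

set_option autoImplicit false
set_option maxRecDepth 100000

namespace Cfsg.Agent.H405.U33

open Cfsg.Agent.BabyM.TransInv Cfsg.Agent.H698.U33 Cfsg.Agent.H698.U33.Clo

theorem a12 : tst (flat 18 L18 x12) = true := by decide +kernel
theorem b12 : tst (winv (flat 18 L18 x12)) = true := by decide +kernel

theorem a13 : tst (flat 18 L18 x13) = true := by decide +kernel
theorem b13 : tst (winv (flat 18 L18 x13)) = true := by decide +kernel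

theorem a15 : tst (flat 18 L18 x15) = true := by decide +kernel
theorem b15 : tst (winv (flat 18 L18 x15)) = true := by decide +kernel

theorem a16 : tst (flat 18 L18 x16) = true := by decide +kernel
theorem b16 : tst (winv (flat 18 L18 x16)) = true := by decide +kernel

theorem a17 : tst (flat 18 L18 x17) = true := by decide +kernel
theorem b17 : tst (winv (flat 18 L18 x17)) = true := by decide +kernel

theorem a18 : tst (flat 18 L18 x18) = true := by decide +kernel
theorem b18 : tst (winv (flat 18 L18 x18)) = true := by decide +kernel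

theorem a19 : tst (flat 18 L18 x19) = true := by decide +kernel
theorem b19 : tst (winv (flat 18 L18 x19)) = true := by decide +kernel

theorem a20 : tst (flat 18 L18 x20) = true := by decide +kernel
theorem b20 : tst (winv (flat 18 L18 x20)) = true := by decide +kernel

theorem a21 : tst (flat 18 L18 x21) = true := by decide +kernel
theorem b21 : tst (winv (flat 18 L18 x21)) = true := by decide +kernel

theorem a22 : tst (flat 18 L18 x22) = true := by decide +kernel
theorem b22 : tst (winv (flat 18 L18 x22)) = true := by decide +kernel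

theorem a23 : tst (flat 18 L18 x23) = true := by decide +kernel
theorem b23 : tst (winv (flat 18 L18 x23)) = true := by decide +kernel

theorem ch1 : ∀ x ∈ xc1, x = x14 ∨ x = x32 ∨ x = x160 ∨ Ref x := by
  intro x hx
  simp only [xc1, List.mem_cons, List.not_mem_nil, or_false] at hx
  rcases hx with rfl | rfl | rfl | rfl | rfl | rfl | rfl | rfl | rfl | rfl | rfl | rfl
  · exact Or.inr (Or.inr (Or.inr (ref_of a12 b12)))
  · exact Or.inr (Or.inr (Or.inr (ref_of a13 b13)))
  · exact Or.inl rfl
  · exact Or.inr (Or.inr (Or.inr (ref_of a15 b15)))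
  · exact Or.inr (Or.inr (Or.inr (ref_of a16 b16)))
  · exact Or.inr (Or.inr (Or.inr (ref_of a17 b17)))
  · exact Or.inr (Or.inr (Or.inr (ref_of a18 b18)))
  · exact Or.inr (Or.inr (Or.inr (ref_of a19 b19)))
  · exact Or.inr (Or.inr (Or.inr (ref_of a20 b20)))
  · exact Or.inr (Or.inr (Or.inr (ref_of a21 b21)))
  · exact Or.inr (Or.inr (Or.inr (ref_of a22 b22)))
  · exact Or.inr (Or.inr (Or.inr (ref_of a23 b23)))

end Cfsg.Agent.H405.U33
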