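import Cfsg.Agent.H405.U33.Base
import Cfsg.Agent.H698.U33.Clo.Dat

/-!
# S5525, box H6: refutation of the candidates 120 to 131 (helper405; candidates of helper919)
-/

set_option autoImplicit false
set_option maxRecDepth 100000

namespace Cfsg.Agent.H405.U33

open Cfsg.Agent.BabyM.TransInv Cfsg.Agent.H698.U33 Cfsg.Agent.H698.U33.Clo

theorem a120 : tst (flat 18 L18 x120) = true := by decide +kernel
theorem b120 : tst (winv (flat 18 L18 x120)) = true := by decide +kernel

theorem a121 : tst (flat 18 L18 x121) = true := by decide +kernel
theorem b121 : tst (winv (flat 18 L18 x121)) = true := by decide +kernel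

theorem a122 : tst (flat 18 L18 x122) = true := by decide +kernel
theorem b122 : tst (winv (flat 18 L18 x122)) = true := by decide +kernel

theorem a123 : tst (flat 18 L18 x123) = true := by decide +kernel
theorem b123 : tst (winv (flat 18 L18 x123)) = true := by decide +kernel

theorem a124 : tst (flat 18 L18 x124) = true := by decide +kernel
theorem b124 : tst (winv (flat 18 L18 x124)) = true := by decide +kernel

theorem a125 : tst (flat 18 L18 x125) = true := by decide +kernel
theorem b125 : tst (winv (flat 18 L18 x125)) = true := by decide +kernel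

theorem a126 : tst (flat 18 L18 x126) = true := by decide +kernel
theorem b126 : tst (winv (flat 18 L18 x126)) = true := by decide +kernel

theorem a127 : tst (flat 18 L18 x127) = true := by decide +kernel
theorem b127 : tst (winv (flat 18 L18 x127)) = true := by decide +kernel

theorem a128 : tst (flat 18 L18 x128) = true := by decide +kernel
theorem b128 : tst (winv (flat 18 L18 x128)) = true := by decide +kernel

theorem a129 : tst (flat 18 L18 x129) = true := by decide +kernel
theorem b129 : tst (winv (flat 18 L18 x129)) = true := by decide +kernel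

theorem a130 : tst (flat 18 L18 x130) = true := by decide +kernel
theorem b130 : tst (winv (flat 18 L18 x130)) = true := by decide +kernel

theorem a131 : tst (flat 18 L18 x131) = true := by decide +kernel
theorem b131 : tst (winv (flat 18 L18 x131)) = true := by decide +kernel

theorem ch10 : ∀ x ∈ xc10, x = x14 ∨ x = x32 ∨ x = x160 ∨ Ref x := by
  intro x hx
  simp only [xc10, List.mem_cons, List.not_mem_nil, or_false] at hx
  rcases hx with rfl | rfl | rfl | rfl | rfl | rfl | rfl | rfl | rfl | rfl | rfl | rfl
  · exact Or.inr (Or.inr (Or.inr (ref_of a120 b120)))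
  · exact Or.inr (Or.inr (Or.inr (ref_of a121 b121)))
  · exact Or.inr (Or.inr (Or.inr (ref_of a122 b122)))
  · exact Or.inr (Or.inr (Or.inr (ref_of a123 b123)))
  · exact Or.inr (Or.inr (Or.inr (ref_of a124 b124)))
  · exact Or.inr (Or.inr (Or.inr (ref_of a125 b125)))
  · exact Or.inr (Or.inr (Or.inr (ref_of a126 b126)))
  · exact Or.inr (Or.inr (Or.inr (ref_of a127 b127)))
  · exact Or.inr (Or.inr (Or.inr (ref_of a128 b128)))
  · exact Or.inr (Or.inr (Or.inr (ref_of a129 b129)))
  · exact Or.inr (Or.inr (Or.inr (ref_of a130 b130)))
  · exact Or.inr (Or.inr (Or.inr (ref_of a131 b131)))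

end Cfsg.Agent.H405.U33
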