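import Cfsg.Agent.H405.U33.Base
import Cfsg.Agent.H698.U33.Clo.Dat

/-!
# S5525, box H6: refutation of the candidates 132 to 143 (helper405; candidates of helper919)
-/

set_option autoImplicit false
set_option maxRecDepth 100000

namespace Cfsg.Agent.H405.U33

open Cfsg.Agent.BabyM.TransInv Cfsg.Agent.H698.U33 Cfsg.Agent.H698.U33.Clo

theorem a132 : tst (flat 18 L18 x132) = true := by decide +kernel
theorem b132 : tst (winv (flat 18 L18 x132)) = true := by decide +kernel

theorem a133 : tst (flat 18 L18 x133) = true := by decide +kernel
theorem b133 : tst (winv (flat 18 L18 x133)) = true := by decide +kernel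

theorem a134 : tst (flat 18 L18 x134) = true := by decide +kernel
theorem b134 : tst (winv (flat 18 L18 x134)) = true := by decide +kernel

theorem a135 : tst (flat 18 L18 x135) = true := by decide +kernel
theorem b135 : tst (winv (flat 18 L18 x135)) = true := by decide +kernel

theorem a136 : tst (flat 18 L18 x136) = true := by decide +kernel
theorem b136 : tst (winv (flat 18 L18 x136)) = true := by decide +kernel

theorem a137 : tst (flat 18 L18 x137) = true := by decide +kernel
theorem b137 : tst (winv (flat 18 L18 x137)) = true := by decide +kernel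

theorem a138 : tst (flat 18 L18 x138) = true := by decide +kernel
theorem b138 : tst (winv (flat 18 L18 x138)) = true := by decide +kernel

theorem a139 : tst (flat 18 L18 x139) = true := by decide +kernel
theorem b139 : tst (winv (flat 18 L18 x139)) = true := by decide +kernel

theorem a140 : tst (flat 18 L18 x140) = true := by decide +kernel
theorem b140 : tst (winv (flat 18 L18 x140)) = true := by decide +kernel

theorem a141 : tst (flat 18 L18 x141) = true := by decide +kernel
theorem b141 : tst (winv (flat 18 L18 x141)) = true := by decide +kernel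

theorem a142 : tst (flat 18 L18 x142) = true := by decide +kernel
theorem b142 : tst (winv (flat 18 L18 x142)) = true := by decide +kernel

theorem a143 : tst (flat 18 L18 x143) = true := by decide +kernel
theorem b143 : tst (winv (flat 18 L18 x143)) = true := by decide +kernel

theorem ch11 : ∀ x ∈ xc11, x = x14 ∨ x = x32 ∨ x = x160 ∨ Ref x := by
  intro x hx
  simp only [xc11, List.mem_cons, List.not_mem_nil, or_false] at hx
  rcases hx with rfl | rfl | rfl | rfl | rfl | rfl | rfl | rfl | rfl | rfl | rfl | rfl
  · exact Or.inr (Or.inr (Or.inr (ref_of a132 b132)))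
  · exact Or.inr (Or.inr (Or.inr (ref_of a133 b133)))
  · exact Or.inr (Or.inr (Or.inr (ref_of a134 b134)))
  · exact Or.inr (Or.inr (Or.inr (ref_of a135 b135)))
  · exact Or.inr (Or.inr (Or.inr (ref_of a136 b136)))
  · exact Or.inr (Or.inr (Or.inr (ref_of a137 b137)))
  · exact Or.inr (Or.inr (Or.inr (ref_of a138 b138)))
  · exact Or.inr (Or.inr (Or.inr (ref_of a139 b139)))
  · exact Or.inr (Or.inr (Or.inr (ref_of a140 b140)))
  · exact Or.inr (Or.inr (Or.inr (ref_of a141 b141)))
  · exact Or.inr (Or.inr (Or.inr (ref_of a142 b142)))
  · exact Or.inr (Or.inr (Or.inr (ref_of a143 b143)))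

end Cfsg.Agent.H405.U33
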