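import Cfsg.Agent.H405.U33.Base
import Cfsg.Agent.H698.U33.Clo.Dat

/-!
# S5525, box H6: refutation of the candidates 144 to 155 (helper405; candidates of helper919)
-/

set_option autoImplicit false
set_option maxRecDepth 100000

namespace Cfsg.Agent.H405.U33

open Cfsg.Agent.BabyM.TransInv Cfsg.Agent.H698.U33 Cfsg.Agent.H698.U33.Clo

theorem a144 : tst (flat 18 L18 x144) = true := by decide +kernel
theorem b144 : tst (winv (flat 18 L18 x144)) = true := by decide +kernel

theorem a145 : tst (flat 18 L18 x145) = true := by decide +kernel
theorem b145 : tst (winv (flat 18 L18 x145)) = true := by decide +kernel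

theorem a146 : tst (flat 18 L18 x146) = true := by decide +kernel
theorem b146 : tst (winv (flat 18 L18 x146)) = true := by decide +kernel

theorem a147 : tst (flat 18 L18 x147) = true := by decide +kernel
theorem b147 : tst (winv (flat 18 L18 x147)) = true := by decide +kernel

theorem a148 : tst (flat 18 L18 x148) = true := by decide +kernel
theorem b148 : tst (winv (flat 18 L18 x148)) = true := by decide +kernel

theorem a149 : tst (flat 18 L18 x149) = true := by decide +kernel
theorem b149 : tst (winv (flat 18 L18 x149)) = true := by decide +kernel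

theorem a150 : tst (flat 18 L18 x150) = true := by decide +kernel
theorem b150 : tst (winv (flat 18 L18 x150)) = true := by decide +kernel

theorem a151 : tst (flat 18 L18 x151) = true := by decide +kernel
theorem b151 : tst (winv (flat 18 L18 x151)) = true := by decide +kernel

theorem a152 : tst (flat 18 L18 x152) = true := by decide +kernel
theorem b152 : tst (winv (flat 18 L18 x152)) = true := by decide +kernel

theorem a153 : tst (flat 18 L18 x153) = true := by decide +kernel
theorem b153 : tst (winv (flat 18 L18 x153)) = true := by decide +kernel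

theorem a154 : tst (flat 18 L18 x154) = true := by decide +kernel
theorem b154 : tst (winv (flat 18 L18 x154)) = true := by decide +kernel

theorem a155 : tst (flat 18 L18 x155) = true := by decide +kernel
theorem b155 : tst (winv (flat 18 L18 x155)) = true := by decide +kernel

theorem ch12 : ∀ x ∈ xc12, x = x14 ∨ x = x32 ∨ x = x160 ∨ Ref x := by
  intro x hx
  simp only [xc12, List.mem_cons, List.not_mem_nil, or_false] at hx
  rcases hx with rfl | rfl | rfl | rfl | rfl | rfl | rfl | rfl | rfl | rfl | rfl | rfl
  · exact Or.inr (Or.inr (Or.inr (ref_of a144 b144)))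
  · exact Or.inr (Or.inr (Or.inr (ref_of a145 b145)))
  · exact Or.inr (Or.inr (Or.inr (ref_of a146 b146)))
  · exact Or.inr (Or.inr (Or.inr (ref_of a147 b147)))
  · exact Or.inr (Or.inr (Or.inr (ref_of a148 b148)))
  · exact Or.inr (Or.inr (Or.inr (ref_of a149 b149)))
  · exact Or.inr (Or.inr (Or.inr (ref_of a150 b150)))
  · exact Or.inr (Or.inr (Or.inr (ref_of a151 b151)))
  · exact Or.inr (Or.inr (Or.inr (ref_of a152 b152)))
  · exact Or.inr (Or.inr (Or.inr (ref_of a153 b153)))
  · exact Or.inr (Or.inr (Or.inr (ref_of a154 b154)))
  · exact Or.inr (Or.inr (Or.inr (ref_of a155 b155)))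

end Cfsg.Agent.H405.U33
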