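import Cfsg.Agent.H405.U33.Base
import Cfsg.Agent.H698.U33.Clo.Dat

/-!
# S5525, box H6: refutation of the candidates 156 to 167 (helper405; candidates of helper919)
-/

set_option autoImplicit false
set_option maxRecDepth 100000

namespace Cfsg.Agent.H405.U33

open Cfsg.Agent.BabyM.TransInv Cfsg.Agent.H698.U33 Cfsg.Agent.H698.U33.Clo

theorem a156 : tst (flat 18 L18 x156) = true := by decide +kernel
theorem b156 : tst (winv (flat 18 L18 x156)) = true := by decide +kernel

theorem a157 : tst (flat 18 L18 x157) = true := by decide +kernel
theorem b157 : tst (winv (flat 18 L18 x157)) = true := by decide +kernel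

theorem a158 : tst (flat 18 L18 x158) = true := by decide +kernel
theorem b158 : tst (winv (flat 18 L18 x158)) = true := by decide +kernel

theorem a159 : tst (flat 18 L18 x159) = true := by decide +kernel
theorem b159 : tst (winv (flat 18 L18 x159)) = true := by decide +kernel

theorem a161 : tst (flat 18 L18 x161) = true := by decide +kernel
theorem b161 : tst (winv (flat 18 L18 x161)) = true := by decide +kernel

theorem a162 : tst (flat 18 L18 x162) = true := by decide +kernel
theorem b162 : tst (winv (flat 18 L18 x162)) = true := by decide +kernel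

theorem a163 : tst (flat 18 L18 x163) = true := by decide +kernel
theorem b163 : tst (winv (flat 18 L18 x163)) = true := by decide +kernel

theorem a164 : tst (flat 18 L18 x164) = true := by decide +kernel
theorem b164 : tst (winv (flat 18 L18 x164)) = true := by decide +kernel

theorem a165 : tst (flat 18 L18 x165) = true := by decide +kernel
theorem b165 : tst (winv (flat 18 L18 x165)) = true := by decide +kernel

theorem a166 : tst (flat 18 L18 x166) = true := by decide +kernel
theorem b166 : tst (winv (flat 18 L18 x166)) = true := by decide +kernel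

theorem a167 : tst (flat 18 L18 x167) = true := by decide +kernel
theorem b167 : tst (winv (flat 18 L18 x167)) = true := by decide +kernel

theorem ch13 : ∀ x ∈ xc13, x = x14 ∨ x = x32 ∨ x = x160 ∨ Ref x := by
  intro x hx
  simp only [xc13, List.mem_cons, List.not_mem_nil, or_false] at hx
  rcases hx with rfl | rfl | rfl | rfl | rfl | rfl | rfl | rfl | rfl | rfl | rfl | rfl
  · exact Or.inr (Or.inr (Or.inr (ref_of a156 b156)))
  · exact Or.inr (Or.inr (Or.inr (ref_of a157 b157)))
  · exact Or.inr (Or.inr (Or.inr (ref_of a158 b158)))
  · exact Or.inr (Or.inr (Or.inr (ref_of a159 b159)))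
  · exact Or.inr (Or.inr (Or.inl rfl))
  · exact Or.inr (Or.inr (Or.inr (ref_of a161 b161)))
  · exact Or.inr (Or.inr (Or.inr (ref_of a162 b162)))
  · exact Or.inr (Or.inr (Or.inr (ref_of a163 b163)))
  · exact Or.inr (Or.inr (Or.inr (ref_of a164 b164)))
  · exact Or.inr (Or.inr (Or.inr (ref_of a165 b165)))
  · exact Or.inr (Or.inr (Or.inr (ref_of a166 b166)))
  · exact Or.inr (Or.inr (Or.inr (ref_of a167 b167)))

end Cfsg.Agent.H405.U33
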