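import Cfsg.Agent.H405.U33.Base
import Cfsg.Agent.H698.U33.Clo.Dat

/-!
# S5525, box H6: refutation of the candidates 168 to 179 (helper405; candidates of helper919)
-/

set_option autoImplicit false
set_option maxRecDepth 100000

namespace Cfsg.Agent.H405.U33

open Cfsg.Agent.BabyM.TransInv Cfsg.Agent.H698.U33 Cfsg.Agent.H698.U33.Clo

theorem a168 : tst (flat 18 L18 x168) = true := by decide +kernel
theorem b168 : tst (winv (flat 18 L18 x168)) = true := by decide +kernel

theorem a169 : tst (flat 18 L18 x169) = true := by decide +kernel
theorem b169 : tst (winv (flat 18 L18 x169)) = true := by decide +kernel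

theorem a170 : tst (flat 18 L18 x170) = true := by decide +kernel
theorem b170 : tst (winv (flat 18 L18 x170)) = true := by decide +kernel

theorem a171 : tst (flat 18 L18 x171) = true := by decide +kernel
theorem b171 : tst (winv (flat 18 L18 x171)) = true := by decide +kernel

theorem a172 : tst (flat 18 L18 x172) = true := by decide +kernel
theorem b172 : tst (winv (flat 18 L18 x172)) = true := by decide +kernel

theorem a173 : tst (flat 18 L18 x173) = true := by decide +kernel
theorem b173 : tst (winv (flat 18 L18 x173)) = true := by decide +kernel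

theorem a174 : tst (flat 18 L18 x174) = true := by decide +kernel
theorem b174 : tst (winv (flat 18 L18 x174)) = true := by decide +kernel

theorem a175 : tst (flat 18 L18 x175) = true := by decide +kernel
theorem b175 : tst (winv (flat 18 L18 x175)) = true := by decide +kernel

theorem a176 : tst (flat 18 L18 x176) = true := by decide +kernel
theorem b176 : tst (winv (flat 18 L18 x176)) = true := by decide +kernel

theorem a177 : tst (flat 18 L18 x177) = true := by decide +kernel
theorem b177 : tst (winv (flat 18 L18 x177)) = true := by decide +kernel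

theorem a178 : tst (flat 18 L18 x178) = true := by decide +kernel
theorem b178 : tst (winv (flat 18 L18 x178)) = true := by decide +kernel

theorem a179 : tst (flat 18 L18 x179) = true := by decide +kernel
theorem b179 : tst (winv (flat 18 L18 x179)) = true := by decide +kernel

theorem ch14 : ∀ x ∈ xc14, x = x14 ∨ x = x32 ∨ x = x160 ∨ Ref x := by
  intro x hx
  simp only [xc14, List.mem_cons, List.not_mem_nil, or_false] at hx
  rcases hx with rfl | rfl | rfl | rfl | rfl | rfl | rfl | rfl | rfl | rfl | rfl | rfl
  · exact Or.inr (Or.inr (Or.inr (ref_of a168 b168)))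
  · exact Or.inr (Or.inr (Or.inr (ref_of a169 b169)))
  · exact Or.inr (Or.inr (Or.inr (ref_of a170 b170)))
  · exact Or.inr (Or.inr (Or.inr (ref_of a171 b171)))
  · exact Or.inr (Or.inr (Or.inr (ref_of a172 b172)))
  · exact Or.inr (Or.inr (Or.inr (ref_of a173 b173)))
  · exact Or.inr (Or.inr (Or.inr (ref_of a174 b174)))
  · exact Or.inr (Or.inr (Or.inr (ref_of a175 b175)))
  · exact Or.inr (Or.inr (Or.inr (ref_of a176 b176)))
  · exact Or.inr (Or.inr (Or.inr (ref_of a177 b177)))
  · exact Or.inr (Or.inr (Or.inr (ref_of a178 b178)))
  · exact Or.inr (Or.inr (Or.inr (ref_of a179 b179)))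

end Cfsg.Agent.H405.U33
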