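import Cfsg.Agent.H405.U33.Base
import Cfsg.Agent.H698.U33.Clo.Dat

/-!
# S5525, box H6: refutation of the candidates 192 to 203 (helper405; candidates of helper919)
-/

set_option autoImplicit false
set_option maxRecDepth 100000

namespace Cfsg.Agent.H405.U33

open Cfsg.Agent.BabyM.TransInv Cfsg.Agent.H698.U33 Cfsg.Agent.H698.U33.Clo

theorem a192 : tst (flat 18 L18 x192) = true := by decide +kernel
theorem b192 : tst (winv (flat 18 L18 x192)) = true := by decide +kernel

theorem a193 : tst (flat 18 L18 x193) = true := by decide +kernel
theorem b193 : tst (winv (flat 18 L18 x193)) = true := by decide +kernel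

theorem a194 : tst (flat 18 L18 x194) = true := by decide +kernel
theorem b194 : tst (winv (flat 18 L18 x194)) = true := by decide +kernel

theorem a195 : tst (flat 18 L18 x195) = true := by decide +kernel
theorem b195 : tst (winv (flat 18 L18 x195)) = true := by decide +kernel

theorem a196 : tst (flat 18 L18 x196) = true := by decide +kernel
theorem b196 : tst (winv (flat 18 L18 x196)) = true := by decide +kernel

theorem a197 : tst (flat 18 L18 x197) = true := by decide +kernel
theorem b197 : tst (winv (flat 18 L18 x197)) = true := by decide +kernel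

theorem a198 : tst (flat 18 L18 x198) = true := by decide +kernel
theorem b198 : tst (winv (flat 18 L18 x198)) = true := by decide +kernel

theorem a199 : tst (flat 18 L18 x199) = true := by decide +kernel
theorem b199 : tst (winv (flat 18 L18 x199)) = true := by decide +kernel

theorem a200 : tst (flat 18 L18 x200) = true := by decide +kernel
theorem b200 : tst (winv (flat 18 L18 x200)) = true := by decide +kernel

theorem a201 : tst (flat 18 L18 x201) = true := by decide +kernel
theorem b201 : tst (winv (flat 18 L18 x201)) = true := by decide +kernel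

theorem a202 : tst (flat 18 L18 x202) = true := by decide +kernel
theorem b202 : tst (winv (flat 18 L18 x202)) = true := by decide +kernel

theorem a203 : tst (flat 18 L18 x203) = true := by decide +kernel
theorem b203 : tst (winv (flat 18 L18 x203)) = true := by decide +kernel

theorem ch16 : ∀ x ∈ xc16, x = x14 ∨ x = x32 ∨ x = x160 ∨ Ref x := by
  intro x hx
  simp only [xc16, List.mem_cons, List.not_mem_nil, or_false] at hx
  rcases hx with rfl | rfl | rfl | rfl | rfl | rfl | rfl | rfl | rfl | rfl | rfl | rfl
  · exact Or.inr (Or.inr (Or.inr (ref_of a192 b192)))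
  · exact Or.inr (Or.inr (Or.inr (ref_of a193 b193)))
  · exact Or.inr (Or.inr (Or.inr (ref_of a194 b194)))
  · exact Or.inr (Or.inr (Or.inr (ref_of a195 b195)))
  · exact Or.inr (Or.inr (Or.inr (ref_of a196 b196)))
  · exact Or.inr (Or.inr (Or.inr (ref_of a197 b197)))
  · exact Or.inr (Or.inr (Or.inr (ref_of a198 b198)))
  · exact Or.inr (Or.inr (Or.inr (ref_of a199 b199)))
  · exact Or.inr (Or.inr (Or.inr (ref_of a200 b200)))
  · exact Or.inr (Or.inr (Or.inr (ref_of a201 b201)))
  · exact Or.inr (Or.inr (Or.inr (ref_of a202 b202)))
  · exact Or.inr (Or.inr (Or.inr (ref_of a203 b203)))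

end Cfsg.Agent.H405.U33
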