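import Cfsg.Agent.H405.U33.Base
import Cfsg.Agent.H698.U33.Clo.Dat

/-!
# S5525, box H6: refutation of the candidates 204 to 215 (helper405; candidates of helper919)
-/

set_option autoImplicit false
set_option maxRecDepth 100000

namespace Cfsg.Agent.H405.U33

open Cfsg.Agent.BabyM.TransInv Cfsg.Agent.H698.U33 Cfsg.Agent.H698.U33.Clo

theorem a204 : tst (flat 18 L18 x204) = true := by decide +kernel
theorem b204 : tst (winv (flat 18 L18 x204)) = true := by decide +kernel

theorem a205 : tst (flat 18 L18 x205) = true := by decide +kernel
theorem b205 : tst (winv (flat 18 L18 x205)) = true := by decide +kernel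

theorem a206 : tst (flat 18 L18 x206) = true := by decide +kernel
theorem b206 : tst (winv (flat 18 L18 x206)) = true := by decide +kernel

theorem a207 : tst (flat 18 L18 x207) = true := by decide +kernel
theorem b207 : tst (winv (flat 18 L18 x207)) = true := by decide +kernel

theorem a208 : tst (flat 18 L18 x208) = true := by decide +kernel
theorem b208 : tst (winv (flat 18 L18 x208)) = true := by decide +kernel

theorem a209 : tst (flat 18 L18 x209) = true := by decide +kernel
theorem b209 : tst (winv (flat 18 L18 x209)) = true := by decide +kernel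

theorem a210 : tst (flat 18 L18 x210) = true := by decide +kernel
theorem b210 : tst (winv (flat 18 L18 x210)) = true := by decide +kernel

theorem a211 : tst (flat 18 L18 x211) = true := by decide +kernel
theorem b211 : tst (winv (flat 18 L18 x211)) = true := by decide +kernel

theorem a212 : tst (flat 18 L18 x212) = true := by decide +kernel
theorem b212 : tst (winv (flat 18 L18 x212)) = true := by decide +kernel

theorem a213 : tst (flat 18 L18 x213) = true := by decide +kernel
theorem b213 : tst (winv (flat 18 L18 x213)) = true := by decide +kernel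

theorem a214 : tst (flat 18 L18 x214) = true := by decide +kernel
theorem b214 : tst (winv (flat 18 L18 x214)) = true := by decide +kernel

theorem a215 : tst (flat 18 L18 x215) = true := by decide +kernel
theorem b215 : tst (winv (flat 18 L18 x215)) = true := by decide +kernel

theorem ch17 : ∀ x ∈ xc17, x = x14 ∨ x = x32 ∨ x = x160 ∨ Ref x := by
  intro x hx
  simp only [xc17, List.mem_cons, List.not_mem_nil, or_false] at hx
  rcases hx with rfl | rfl | rfl | rfl | rfl | rfl | rfl | rfl | rfl | rfl | rfl | rfl
  · exact Or.inr (Or.inr (Or.inr (ref_of a204 b204)))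
  · exact Or.inr (Or.inr (Or.inr (ref_of a205 b205)))
  · exact Or.inr (Or.inr (Or.inr (ref_of a206 b206)))
  · exact Or.inr (Or.inr (Or.inr (ref_of a207 b207)))
  · exact Or.inr (Or.inr (Or.inr (ref_of a208 b208)))
  · exact Or.inr (Or.inr (Or.inr (ref_of a209 b209)))
  · exact Or.inr (Or.inr (Or.inr (ref_of a210 b210)))
  · exact Or.inr (Or.inr (Or.inr (ref_of a211 b211)))
  · exact Or.inr (Or.inr (Or.inr (ref_of a212 b212)))
  · exact Or.inr (Or.inr (Or.inr (ref_of a213 b213)))
  · exact Or.inr (Or.inr (Or.inr (ref_of a214 b214)))
  · exact Or.inr (Or.inr (Or.inr (ref_of a215 b215)))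

end Cfsg.Agent.H405.U33
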