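import Cfsg.Agent.H405.U33.Base
import Cfsg.Agent.H698.U33.Clo.Dat

/-!
# S5525, box H6: refutation of the candidates 216 to 227 (helper405; candidates of helper919)
-/

set_option autoImplicit false
set_option maxRecDepth 100000

namespace Cfsg.Agent.H405.U33

open Cfsg.Agent.BabyM.TransInv Cfsg.Agent.H698.U33 Cfsg.Agent.H698.U33.Clo

theorem a216 : tst (flat 18 L18 x216) = true := by decide +kernel
theorem b216 : tst (winv (flat 18 L18 x216)) = true := by decide +kernel

theorem a217 : tst (flat 18 L18 x217) = true := by decide +kernel
theorem b217 : tst (winv (flat 18 L18 x217)) = true := by decide +kernel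

theorem a218 : tst (flat 18 L18 x218) = true := by decide +kernel
theorem b218 : tst (winv (flat 18 L18 x218)) = true := by decide +kernel

theorem a219 : tst (flat 18 L18 x219) = true := by decide +kernel
theorem b219 : tst (winv (flat 18 L18 x219)) = true := by decide +kernel

theorem a220 : tst (flat 18 L18 x220) = true := by decide +kernel
theorem b220 : tst (winv (flat 18 L18 x220)) = true := by decide +kernel

theorem a221 : tst (flat 18 L18 x221) = true := by decide +kernel
theorem b221 : tst (winv (flat 18 L18 x221)) = true := by decide +kernel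

theorem a222 : tst (flat 18 L18 x222) = true := by decide +kernel
theorem b222 : tst (winv (flat 18 L18 x222)) = true := by decide +kernel

theorem a223 : tst (flat 18 L18 x223) = true := by decide +kernel
theorem b223 : tst (winv (flat 18 L18 x223)) = true := by decide +kernel

theorem a224 : tst (flat 18 L18 x224) = true := by decide +kernel
theorem b224 : tst (winv (flat 18 L18 x224)) = true := by decide +kernel

theorem a225 : tst (flat 18 L18 x225) = true := by decide +kernel
theorem b225 : tst (winv (flat 18 L18 x225)) = true := by decide +kernel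

theorem a226 : tst (flat 18 L18 x226) = true := by decide +kernel
theorem b226 : tst (winv (flat 18 L18 x226)) = true := by decide +kernel

theorem a227 : tst (flat 18 L18 x227) = true := by decide +kernel
theorem b227 : tst (winv (flat 18 L18 x227)) = true := by decide +kernel

theorem ch18 : ∀ x ∈ xc18, x = x14 ∨ x = x32 ∨ x = x160 ∨ Ref x := by
  intro x hx
  simp only [xc18, List.mem_cons, List.not_mem_nil, or_false] at hx
  rcases hx with rfl | rfl | rfl | rfl | rfl | rfl | rfl | rfl | rfl | rfl | rfl | rfl
  · exact Or.inr (Or.inr (Or.inr (ref_of a216 b216)))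
  · exact Or.inr (Or.inr (Or.inr (ref_of a217 b217)))
  · exact Or.inr (Or.inr (Or.inr (ref_of a218 b218)))
  · exact Or.inr (Or.inr (Or.inr (ref_of a219 b219)))
  · exact Or.inr (Or.inr (Or.inr (ref_of a220 b220)))
  · exact Or.inr (Or.inr (Or.inr (ref_of a221 b221)))
  · exact Or.inr (Or.inr (Or.inr (ref_of a222 b222)))
  · exact Or.inr (Or.inr (Or.inr (ref_of a223 b223)))
  · exact Or.inr (Or.inr (Or.inr (ref_of a224 b224)))
  · exact Or.inr (Or.inr (Or.inr (ref_of a225 b225)))
  · exact Or.inr (Or.inr (Or.inr (ref_of a226 b226)))
  · exact Or.inr (Or.inr (Or.inr (ref_of a227 b227)))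

end Cfsg.Agent.H405.U33
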