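import Cfsg.Agent.H405.U33.Base
import Cfsg.Agent.H698.U33.Clo.Dat

/-!
# S5525, box H6: refutation of the candidates 228 to 239 (helper405; candidates of helper919)
-/

set_option autoImplicit false
set_option maxRecDepth 100000

namespace Cfsg.Agent.H405.U33

open Cfsg.Agent.BabyM.TransInv Cfsg.Agent.H698.U33 Cfsg.Agent.H698.U33.Clo

theorem a228 : tst (flat 18 L18 x228) = true := by decide +kernel
theorem b228 : tst (winv (flat 18 L18 x228)) = true := by decide +kernel

theorem a229 : tst (flat 18 L18 x229) = true := by decide +kernel
theorem b229 : tst (winv (flat 18 L18 x229)) = true := by decide +kernel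

theorem a230 : tst (flat 18 L18 x230) = true := by decide +kernel
theorem b230 : tst (winv (flat 18 L18 x230)) = true := by decide +kernel

theorem a231 : tst (flat 18 L18 x231) = true := by decide +kernel
theorem b231 : tst (winv (flat 18 L18 x231)) = true := by decide +kernel

theorem a232 : tst (flat 18 L18 x232) = true := by decide +kernel
theorem b232 : tst (winv (flat 18 L18 x232)) = true := by decide +kernel

theorem a233 : tst (flat 18 L18 x233) = true := by decide +kernel
theorem b233 : tst (winv (flat 18 L18 x233)) = true := by decide +kernel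

theorem a234 : tst (flat 18 L18 x234) = true := by decide +kernel
theorem b234 : tst (winv (flat 18 L18 x234)) = true := by decide +kernel

theorem a235 : tst (flat 18 L18 x235) = true := by decide +kernel
theorem b235 : tst (winv (flat 18 L18 x235)) = true := by decide +kernel

theorem a236 : tst (flat 18 L18 x236) = true := by decide +kernel
theorem b236 : tst (winv (flat 18 L18 x236)) = true := by decide +kernel

theorem a237 : tst (flat 18 L18 x237) = true := by decide +kernel
theorem b237 : tst (winv (flat 18 L18 x237)) = true := by decide +kernel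

theorem a238 : tst (flat 18 L18 x238) = true := by decide +kernel
theorem b238 : tst (winv (flat 18 L18 x238)) = true := by decide +kernel

theorem a239 : tst (flat 18 L18 x239) = true := by decide +kernel
theorem b239 : tst (winv (flat 18 L18 x239)) = true := by decide +kernel

theorem ch19 : ∀ x ∈ xc19, x = x14 ∨ x = x32 ∨ x = x160 ∨ Ref x := by
  intro x hx
  simp only [xc19, List.mem_cons, List.not_mem_nil, or_false] at hx
  rcases hx with rfl | rfl | rfl | rfl | rfl | rfl | rfl | rfl | rfl | rfl | rfl | rfl
  · exact Or.inr (Or.inr (Or.inr (ref_of a228 b228)))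
  · exact Or.inr (Or.inr (Or.inr (ref_of a229 b229)))
  · exact Or.inr (Or.inr (Or.inr (ref_of a230 b230)))
  · exact Or.inr (Or.inr (Or.inr (ref_of a231 b231)))
  · exact Or.inr (Or.inr (Or.inr (ref_of a232 b232)))
  · exact Or.inr (Or.inr (Or.inr (ref_of a233 b233)))
  · exact Or.inr (Or.inr (Or.inr (ref_of a234 b234)))
  · exact Or.inr (Or.inr (Or.inr (ref_of a235 b235)))
  · exact Or.inr (Or.inr (Or.inr (ref_of a236 b236)))
  · exact Or.inr (Or.inr (Or.inr (ref_of a237 b237)))
  · exact Or.inr (Or.inr (Or.inr (ref_of a238 b238)))
  · exact Or.inr (Or.inr (Or.inr (ref_of a239 b239)))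

end Cfsg.Agent.H405.U33
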