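import Cfsg.Agent.H405.U33.Base
import Cfsg.Agent.H698.U33.Clo.Dat

/-!
# S5525, box H6: refutation of the candidates 24 to 35 (helper405; candidates of helper919)
-/

set_option autoImplicit false
set_option maxRecDepth 100000

namespace Cfsg.Agent.H405.U33

open Cfsg.Agent.BabyM.TransInv Cfsg.Agent.H698.U33 Cfsg.Agent.H698.U33.Clo

theorem a24 : tst (flat 18 L18 x24) = true := by decide +kernel
theorem b24 : tst (winv (flat 18 L18 x24)) = true := by decide +kernel

theorem a25 : tst (flat 18 L18 x25) = true := by decide +kernel
theorem b25 : tst (winv (flat 18 L18 x25)) = true := by decide +kernel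

theorem a26 : tst (flat 18 L18 x26) = true := by decide +kernel
theorem b26 : tst (winv (flat 18 L18 x26)) = true := by decide +kernel

theorem a27 : tst (flat 18 L18 x27) = true := by decide +kernel
theorem b27 : tst (winv (flat 18 L18 x27)) = true := by decide +kernel

theorem a28 : tst (flat 18 L18 x28) = true := by decide +kernel
theorem b28 : tst (winv (flat 18 L18 x28)) = true := by decide +kernel

theorem a29 : tst (flat 18 L18 x29) = true := by decide +kernel
theorem b29 : tst (winv (flat 18 L18 x29)) = true := by decide +kernel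

theorem a30 : tst (flat 18 L18 x30) = true := by decide +kernel
theorem b30 : tst (winv (flat 18 L18 x30)) = true := by decide +kernel

theorem a31 : tst (flat 18 L18 x31) = true := by decide +kernel
theorem b31 : tst (winv (flat 18 L18 x31)) = true := by decide +kernel

theorem a33 : tst (flat 18 L18 x33) = true := by decide +kernel
theorem b33 : tst (winv (flat 18 L18 x33)) = true := by decide +kernel

theorem a34 : tst (flat 18 L18 x34) = true := by decide +kernel
theorem b34 : tst (winv (flat 18 L18 x34)) = true := by decide +kernel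

theorem a35 : tst (flat 18 L18 x35) = true := by decide +kernel
theorem b35 : tst (winv (flat 18 L18 x35)) = true := by decide +kernel

theorem ch2 : ∀ x ∈ xc2, x = x14 ∨ x = x32 ∨ x = x160 ∨ Ref x := by
  intro x hx
  simp only [xc2, List.mem_cons, List.not_mem_nil, or_false] at hx
  rcases hx with rfl | rfl | rfl | rfl | rfl | rfl | rfl | rfl | rfl | rfl | rfl | rfl
  · exact Or.inr (Or.inr (Or.inr (ref_of a24 b24)))
  · exact Or.inr (Or.inr (Or.inr (ref_of a25 b25)))
  · exact Or.inr (Or.inr (Or.inr (ref_of a26 b26)))
  · exact Or.inr (Or.inr (Or.inr (ref_of a27 b27)))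
  · exact Or.inr (Or.inr (Or.inr (ref_of a28 b28)))
  · exact Or.inr (Or.inr (Or.inr (ref_of a29 b29)))
  · exact Or.inr (Or.inr (Or.inr (ref_of a30 b30)))
  · exact Or.inr (Or.inr (Or.inr (ref_of a31 b31)))
  · exact Or.inr (Or.inl rfl)
  · exact Or.inr (Or.inr (Or.inr (ref_of a33 b33)))
  · exact Or.inr (Or.inr (Or.inr (ref_of a34 b34)))
  · exact Or.inr (Or.inr (Or.inr (ref_of a35 b35)))

end Cfsg.Agent.H405.U33
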