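import Cfsg.Agent.H405.U33.Base
import Cfsg.Agent.H698.U33.Clo.Dat

/-!
# S5525, box H6: refutation of the candidates 240 to 251 (helper405; candidates of helper919)
-/

set_option autoImplicit false
set_option maxRecDepth 100000

namespace Cfsg.Agent.H405.U33

open Cfsg.Agent.BabyM.TransInv Cfsg.Agent.H698.U33 Cfsg.Agent.H698.U33.Clo

theorem a240 : tst (flat 18 L18 x240) = true := by decide +kernel
theorem b240 : tst (winv (flat 18 L18 x240)) = true := by decide +kernel

theorem a241 : tst (flat 18 L18 x241) = true := by decide +kernel
theorem b241 : tst (winv (flat 18 L18 x241)) = true := by decide +kernel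

theorem a242 : tst (flat 18 L18 x242) = true := by decide +kernel
theorem b242 : tst (winv (flat 18 L18 x242)) = true := by decide +kernel

theorem a243 : tst (flat 18 L18 x243) = true := by decide +kernel
theorem b243 : tst (winv (flat 18 L18 x243)) = true := by decide +kernel

theorem a244 : tst (flat 18 L18 x244) = true := by decide +kernel
theorem b244 : tst (winv (flat 18 L18 x244)) = true := by decide +kernel

theorem a245 : tst (flat 18 L18 x245) = true := by decide +kernel
theorem b245 : tst (winv (flat 18 L18 x245)) = true := by decide +kernel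

theorem a246 : tst (flat 18 L18 x246) = true := by decide +kernel
theorem b246 : tst (winv (flat 18 L18 x246)) = true := by decide +kernel

theorem a247 : tst (flat 18 L18 x247) = true := by decide +kernel
theorem b247 : tst (winv (flat 18 L18 x247)) = true := by decide +kernel

theorem a248 : tst (flat 18 L18 x248) = true := by decide +kernel
theorem b248 : tst (winv (flat 18 L18 x248)) = true := by decide +kernel

theorem a249 : tst (flat 18 L18 x249) = true := by decide +kernel
theorem b249 : tst (winv (flat 18 L18 x249)) = true := by decide +kernel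

theorem a250 : tst (flat 18 L18 x250) = true := by decide +kernel
theorem b250 : tst (winv (flat 18 L18 x250)) = true := by decide +kernel

theorem a251 : tst (flat 18 L18 x251) = true := by decide +kernel
theorem b251 : tst (winv (flat 18 L18 x251)) = true := by decide +kernel

theorem ch20 : ∀ x ∈ xc20, x = x14 ∨ x = x32 ∨ x = x160 ∨ Ref x := by
  intro x hx
  simp only [xc20, List.mem_cons, List.not_mem_nil, or_false] at hx
  rcases hx with rfl | rfl | rfl | rfl | rfl | rfl | rfl | rfl | rfl | rfl | rfl | rfl
  · exact Or.inr (Or.inr (Or.inr (ref_of a240 b240)))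
  · exact Or.inr (Or.inr (Or.inr (ref_of a241 b241)))
  · exact Or.inr (Or.inr (Or.inr (ref_of a242 b242)))
  · exact Or.inr (Or.inr (Or.inr (ref_of a243 b243)))
  · exact Or.inr (Or.inr (Or.inr (ref_of a244 b244)))
  · exact Or.inr (Or.inr (Or.inr (ref_of a245 b245)))
  · exact Or.inr (Or.inr (Or.inr (ref_of a246 b246)))
  · exact Or.inr (Or.inr (Or.inr (ref_of a247 b247)))
  · exact Or.inr (Or.inr (Or.inr (ref_of a248 b248)))
  · exact Or.inr (Or.inr (Or.inr (ref_of a249 b249)))
  · exact Or.inr (Or.inr (Or.inr (ref_of a250 b250)))
  · exact Or.inr (Or.inr (Or.inr (ref_of a251 b251)))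

end Cfsg.Agent.H405.U33
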