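import Cfsg.Agent.H405.U33.Base
import Cfsg.Agent.H698.U33.Clo.Dat

/-!
# S5525, box H6: refutation of the candidates 252 to 263 (helper405; candidates of helper919)
-/

set_option autoImplicit false
set_option maxRecDepth 100000

namespace Cfsg.Agent.H405.U33

open Cfsg.Agent.BabyM.TransInv Cfsg.Agent.H698.U33 Cfsg.Agent.H698.U33.Clo

theorem a252 : tst (flat 18 L18 x252) = true := by decide +kernel
theorem b252 : tst (winv (flat 18 L18 x252)) = true := by decide +kernel

theorem a253 : tst (flat 18 L18 x253) = true := by decide +kernel
theorem b253 : tst (winv (flat 18 L18 x253)) = true := by decide +kernel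

theorem a254 : tst (flat 18 L18 x254) = true := by decide +kernel
theorem b254 : tst (winv (flat 18 L18 x254)) = true := by decide +kernel

theorem a255 : tst (flat 18 L18 x255) = true := by decide +kernel
theorem b255 : tst (winv (flat 18 L18 x255)) = true := by decide +kernel

theorem a256 : tst (flat 18 L18 x256) = true := by decide +kernel
theorem b256 : tst (winv (flat 18 L18 x256)) = true := by decide +kernel

theorem a257 : tst (flat 18 L18 x257) = true := by decide +kernel
theorem b257 : tst (winv (flat 18 L18 x257)) = true := by decide +kernel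

theorem a258 : tst (flat 18 L18 x258) = true := by decide +kernel
theorem b258 : tst (winv (flat 18 L18 x258)) = true := by decide +kernel

theorem a259 : tst (flat 18 L18 x259) = true := by decide +kernel
theorem b259 : tst (winv (flat 18 L18 x259)) = true := by decide +kernel

theorem a260 : tst (flat 18 L18 x260) = true := by decide +kernel
theorem b260 : tst (winv (flat 18 L18 x260)) = true := by decide +kernel

theorem a261 : tst (flat 18 L18 x261) = true := by decide +kernel
theorem b261 : tst (winv (flat 18 L18 x261)) = true := by decide +kernel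

theorem a262 : tst (flat 18 L18 x262) = true := by decide +kernel
theorem b262 : tst (winv (flat 18 L18 x262)) = true := by decide +kernel

theorem a263 : tst (flat 18 L18 x263) = true := by decide +kernel
theorem b263 : tst (winv (flat 18 L18 x263)) = true := by decide +kernel

theorem ch21 : ∀ x ∈ xc21, x = x14 ∨ x = x32 ∨ x = x160 ∨ Ref x := by
  intro x hx
  simp only [xc21, List.mem_cons, List.not_mem_nil, or_false] at hx
  rcases hx with rfl | rfl | rfl | rfl | rfl | rfl | rfl | rfl | rfl | rfl | rfl | rfl
  · exact Or.inr (Or.inr (Or.inr (ref_of a252 b252)))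
  · exact Or.inr (Or.inr (Or.inr (ref_of a253 b253)))
  · exact Or.inr (Or.inr (Or.inr (ref_of a254 b254)))
  · exact Or.inr (Or.inr (Or.inr (ref_of a255 b255)))
  · exact Or.inr (Or.inr (Or.inr (ref_of a256 b256)))
  · exact Or.inr (Or.inr (Or.inr (ref_of a257 b257)))
  · exact Or.inr (Or.inr (Or.inr (ref_of a258 b258)))
  · exact Or.inr (Or.inr (Or.inr (ref_of a259 b259)))
  · exact Or.inr (Or.inr (Or.inr (ref_of a260 b260)))
  · exact Or.inr (Or.inr (Or.inr (ref_of a261 b261)))
  · exact Or.inr (Or.inr (Or.inr (ref_of a262 b262)))
  · exact Or.inr (Or.inr (Or.inr (ref_of a263 b263)))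

end Cfsg.Agent.H405.U33
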