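import Cfsg.Agent.H405.U33.Base
import Cfsg.Agent.H698.U33.Clo.Dat

/-!
# S5525, box H6: refutation of the candidates 264 to 275 (helper405; candidates of helper919)
-/

set_option autoImplicit false
set_option maxRecDepth 100000

namespace Cfsg.Agent.H405.U33

open Cfsg.Agent.BabyM.TransInv Cfsg.Agent.H698.U33 Cfsg.Agent.H698.U33.Clo

theorem a264 : tst (flat 18 L18 x264) = true := by decide +kernel
theorem b264 : tst (winv (flat 18 L18 x264)) = true := by decide +kernel

theorem a265 : tst (flat 18 L18 x265) = true := by decide +kernel
theorem b265 : tst (winv (flat 18 L18 x265)) = true := by decide +kernel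

theorem a266 : tst (flat 18 L18 x266) = true := by decide +kernel
theorem b266 : tst (winv (flat 18 L18 x266)) = true := by decide +kernel

theorem a267 : tst (flat 18 L18 x267) = true := by decide +kernel
theorem b267 : tst (winv (flat 18 L18 x267)) = true := by decide +kernel

theorem a268 : tst (flat 18 L18 x268) = true := by decide +kernel
theorem b268 : tst (winv (flat 18 L18 x268)) = true := by decide +kernel

theorem a269 : tst (flat 18 L18 x269) = true := by decide +kernel
theorem b269 : tst (winv (flat 18 L18 x269)) = true := by decide +kernel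

theorem a270 : tst (flat 18 L18 x270) = true := by decide +kernel
theorem b270 : tst (winv (flat 18 L18 x270)) = true := by decide +kernel

theorem a271 : tst (flat 18 L18 x271) = true := by decide +kernel
theorem b271 : tst (winv (flat 18 L18 x271)) = true := by decide +kernel

theorem a272 : tst (flat 18 L18 x272) = true := by decide +kernel
theorem b272 : tst (winv (flat 18 L18 x272)) = true := by decide +kernel

theorem a273 : tst (flat 18 L18 x273) = true := by decide +kernel
theorem b273 : tst (winv (flat 18 L18 x273)) = true := by decide +kernel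

theorem a274 : tst (flat 18 L18 x274) = true := by decide +kernel
theorem b274 : tst (winv (flat 18 L18 x274)) = true := by decide +kernel

theorem a275 : tst (flat 18 L18 x275) = true := by decide +kernel
theorem b275 : tst (winv (flat 18 L18 x275)) = true := by decide +kernel

theorem ch22 : ∀ x ∈ xc22, x = x14 ∨ x = x32 ∨ x = x160 ∨ Ref x := by
  intro x hx
  simp only [xc22, List.mem_cons, List.not_mem_nil, or_false] at hx
  rcases hx with rfl | rfl | rfl | rfl | rfl | rfl | rfl | rfl | rfl | rfl | rfl | rfl
  · exact Or.inr (Or.inr (Or.inr (ref_of a264 b264)))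
  · exact Or.inr (Or.inr (Or.inr (ref_of a265 b265)))
  · exact Or.inr (Or.inr (Or.inr (ref_of a266 b266)))
  · exact Or.inr (Or.inr (Or.inr (ref_of a267 b267)))
  · exact Or.inr (Or.inr (Or.inr (ref_of a268 b268)))
  · exact Or.inr (Or.inr (Or.inr (ref_of a269 b269)))
  · exact Or.inr (Or.inr (Or.inr (ref_of a270 b270)))
  · exact Or.inr (Or.inr (Or.inr (ref_of a271 b271)))
  · exact Or.inr (Or.inr (Or.inr (ref_of a272 b272)))
  · exact Or.inr (Or.inr (Or.inr (ref_of a273 b273)))
  · exact Or.inr (Or.inr (Or.inr (ref_of a274 b274)))
  · exact Or.inr (Or.inr (Or.inr (ref_of a275 b275)))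

end Cfsg.Agent.H405.U33
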