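import Cfsg.Agent.H405.U33.Base
import Cfsg.Agent.H698.U33.Clo.Dat

/-!
# S5525, box H6: refutation of the candidates 276 to 281 (helper405; candidates of helper919)
-/

set_option autoImplicit false
set_option maxRecDepth 100000

namespace Cfsg.Agent.H405.U33

open Cfsg.Agent.BabyM.TransInv Cfsg.Agent.H698.U33 Cfsg.Agent.H698.U33.Clo

theorem a276 : tst (flat 18 L18 x276) = true := by decide +kernel
theorem b276 : tst (winv (flat 18 L18 x276)) = true := by decide +kernel

theorem a277 : tst (flat 18 L18 x277) = true := by decide +kernel
theorem b277 : tst (winv (flat 18 L18 x277)) = true := by decide +kernel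

theorem a278 : tst (flat 18 L18 x278) = true := by decide +kernel
theorem b278 : tst (winv (flat 18 L18 x278)) = true := by decide +kernel

theorem a279 : tst (flat 18 L18 x279) = true := by decide +kernel
theorem b279 : tst (winv (flat 18 L18 x279)) = true := by decide +kernel

theorem a280 : tst (flat 18 L18 x280) = true := by decide +kernel
theorem b280 : tst (winv (flat 18 L18 x280)) = true := by decide +kernel

theorem a281 : tst (flat 18 L18 x281) = true := by decide +kernel
theorem b281 : tst (winv (flat 18 L18 x281)) = true := by decide +kernel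

theorem ch23 : ∀ x ∈ xc23, x = x14 ∨ x = x32 ∨ x = x160 ∨ Ref x := by
  intro x hx
  simp only [xc23, List.mem_cons, List.not_mem_nil, or_false] at hx
  rcases hx with rfl | rfl | rfl | rfl | rfl | rfl
  · exact Or.inr (Or.inr (Or.inr (ref_of a276 b276)))
  · exact Or.inr (Or.inr (Or.inr (ref_of a277 b277)))
  · exact Or.inr (Or.inr (Or.inr (ref_of a278 b278)))
  · exact Or.inr (Or.inr (Or.inr (ref_of a279 b279)))
  · exact Or.inr (Or.inr (Or.inr (ref_of a280 b280)))
  · exact Or.inr (Or.inr (Or.inr (ref_of a281 b281)))

end Cfsg.Agent.H405.U33
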