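import Cfsg.Agent.H405.U33.Base
import Cfsg.Agent.H698.U33.Clo.Dat

/-!
# S5525, box H6: refutation of the candidates 36 to 47 (helper405; candidates of helper919)
-/

set_option autoImplicit false
set_option maxRecDepth 100000

namespace Cfsg.Agent.H405.U33

open Cfsg.Agent.BabyM.TransInv Cfsg.Agent.H698.U33 Cfsg.Agent.H698.U33.Clo

theorem a36 : tst (flat 18 L18 x36) = true := by decide +kernel
theorem b36 : tst (winv (flat 18 L18 x36)) = true := by decide +kernel

theorem a37 : tst (flat 18 L18 x37) = true := by decide +kernel
theorem b37 : tst (winv (flat 18 L18 x37)) = true := by decide +kernel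

theorem a38 : tst (flat 18 L18 x38) = true := by decide +kernel
theorem b38 : tst (winv (flat 18 L18 x38)) = true := by decide +kernel

theorem a39 : tst (flat 18 L18 x39) = true := by decide +kernel
theorem b39 : tst (winv (flat 18 L18 x39)) = true := by decide +kernel

theorem a40 : tst (flat 18 L18 x40) = true := by decide +kernel
theorem b40 : tst (winv (flat 18 L18 x40)) = true := by decide +kernel

theorem a41 : tst (flat 18 L18 x41) = true := by decide +kernel
theorem b41 : tst (winv (flat 18 L18 x41)) = true := by decide +kernel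

theorem a42 : tst (flat 18 L18 x42) = true := by decide +kernel
theorem b42 : tst (winv (flat 18 L18 x42)) = true := by decide +kernel

theorem a43 : tst (flat 18 L18 x43) = true := by decide +kernel
theorem b43 : tst (winv (flat 18 L18 x43)) = true := by decide +kernel

theorem a44 : tst (flat 18 L18 x44) = true := by decide +kernel
theorem b44 : tst (winv (flat 18 L18 x44)) = true := by decide +kernel

theorem a45 : tst (flat 18 L18 x45) = true := by decide +kernel
theorem b45 : tst (winv (flat 18 L18 x45)) = true := by decide +kernel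

theorem a46 : tst (flat 18 L18 x46) = true := by decide +kernel
theorem b46 : tst (winv (flat 18 L18 x46)) = true := by decide +kernel

theorem a47 : tst (flat 18 L18 x47) = true := by decide +kernel
theorem b47 : tst (winv (flat 18 L18 x47)) = true := by decide +kernel

theorem ch3 : ∀ x ∈ xc3, x = x14 ∨ x = x32 ∨ x = x160 ∨ Ref x := by
  intro x hx
  simp only [xc3, List.mem_cons, List.not_mem_nil, or_false] at hx
  rcases hx with rfl | rfl | rfl | rfl | rfl | rfl | rfl | rfl | rfl | rfl | rfl | rfl
  · exact Or.inr (Or.inr (Or.inr (ref_of a36 b36)))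
  · exact Or.inr (Or.inr (Or.inr (ref_of a37 b37)))
  · exact Or.inr (Or.inr (Or.inr (ref_of a38 b38)))
  · exact Or.inr (Or.inr (Or.inr (ref_of a39 b39)))
  · exact Or.inr (Or.inr (Or.inr (ref_of a40 b40)))
  · exact Or.inr (Or.inr (Or.inr (ref_of a41 b41)))
  · exact Or.inr (Or.inr (Or.inr (ref_of a42 b42)))
  · exact Or.inr (Or.inr (Or.inr (ref_of a43 b43)))
  · exact Or.inr (Or.inr (Or.inr (ref_of a44 b44)))
  · exact Or.inr (Or.inr (Or.inr (ref_of a45 b45)))
  · exact Or.inr (Or.inr (Or.inr (ref_of a46 b46)))
  · exact Or.inr (Or.inr (Or.inr (ref_of a47 b47)))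

end Cfsg.Agent.H405.U33
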