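import Cfsg.Agent.H405.U33.Base
import Cfsg.Agent.H698.U33.Clo.Dat

/-!
# S5525, box H6: refutation of the candidates 48 to 59 (helper405; candidates of helper919)
-/

set_option autoImplicit false
set_option maxRecDepth 100000

namespace Cfsg.Agent.H405.U33

open Cfsg.Agent.BabyM.TransInv Cfsg.Agent.H698.U33 Cfsg.Agent.H698.U33.Clo

theorem a48 : tst (flat 18 L18 x48) = true := by decide +kernel
theorem b48 : tst (winv (flat 18 L18 x48)) = true := by decide +kernel

theorem a49 : tst (flat 18 L18 x49) = true := by decide +kernel
theorem b49 : tst (winv (flat 18 L18 x49)) = true := by decide +kernel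

theorem a50 : tst (flat 18 L18 x50) = true := by decide +kernel
theorem b50 : tst (winv (flat 18 L18 x50)) = true := by decide +kernel

theorem a51 : tst (flat 18 L18 x51) = true := by decide +kernel
theorem b51 : tst (winv (flat 18 L18 x51)) = true := by decide +kernel

theorem a52 : tst (flat 18 L18 x52) = true := by decide +kernel
theorem b52 : tst (winv (flat 18 L18 x52)) = true := by decide +kernel

theorem a53 : tst (flat 18 L18 x53) = true := by decide +kernel
theorem b53 : tst (winv (flat 18 L18 x53)) = true := by decide +kernel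

theorem a54 : tst (flat 18 L18 x54) = true := by decide +kernel
theorem b54 : tst (winv (flat 18 L18 x54)) = true := by decide +kernel

theorem a55 : tst (flat 18 L18 x55) = true := by decide +kernel
theorem b55 : tst (winv (flat 18 L18 x55)) = true := by decide +kernel

theorem a56 : tst (flat 18 L18 x56) = true := by decide +kernel
theorem b56 : tst (winv (flat 18 L18 x56)) = true := by decide +kernel

theorem a57 : tst (flat 18 L18 x57) = true := by decide +kernel
theorem b57 : tst (winv (flat 18 L18 x57)) = true := by decide +kernel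

theorem a58 : tst (flat 18 L18 x58) = true := by decide +kernel
theorem b58 : tst (winv (flat 18 L18 x58)) = true := by decide +kernel

theorem a59 : tst (flat 18 L18 x59) = true := by decide +kernel
theorem b59 : tst (winv (flat 18 L18 x59)) = true := by decide +kernel

theorem ch4 : ∀ x ∈ xc4, x = x14 ∨ x = x32 ∨ x = x160 ∨ Ref x := by
  intro x hx
  simp only [xc4, List.mem_cons, List.not_mem_nil, or_false] at hx
  rcases hx with rfl | rfl | rfl | rfl | rfl | rfl | rfl | rfl | rfl | rfl | rfl | rfl
  · exact Or.inr (Or.inr (Or.inr (ref_of a48 b48)))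
  · exact Or.inr (Or.inr (Or.inr (ref_of a49 b49)))
  · exact Or.inr (Or.inr (Or.inr (ref_of a50 b50)))
  · exact Or.inr (Or.inr (Or.inr (ref_of a51 b51)))
  · exact Or.inr (Or.inr (Or.inr (ref_of a52 b52)))
  · exact Or.inr (Or.inr (Or.inr (ref_of a53 b53)))
  · exact Or.inr (Or.inr (Or.inr (ref_of a54 b54)))
  · exact Or.inr (Or.inr (Or.inr (ref_of a55 b55)))
  · exact Or.inr (Or.inr (Or.inr (ref_of a56 b56)))
  · exact Or.inr (Or.inr (Or.inr (ref_of a57 b57)))
  · exact Or.inr (Or.inr (Or.inr (ref_of a58 b58)))
  · exact Or.inr (Or.inr (Or.inr (ref_of a59 b59)))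

end Cfsg.Agent.H405.U33
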