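import Cfsg.Agent.H405.U33.Base
import Cfsg.Agent.H698.U33.Clo.Dat

/-!
# S5525, box H6: refutation of the candidates 60 to 71 (helper405; candidates of helper919)
-/

set_option autoImplicit false
set_option maxRecDepth 100000

namespace Cfsg.Agent.H405.U33

open Cfsg.Agent.BabyM.TransInv Cfsg.Agent.H698.U33 Cfsg.Agent.H698.U33.Clo

theorem a60 : tst (flat 18 L18 x60) = true := by decide +kernel
theorem b60 : tst (winv (flat 18 L18 x60)) = true := by decide +kernel

theorem a61 : tst (flat 18 L18 x61) = true := by decide +kernel
theorem b61 : tst (winv (flat 18 L18 x61)) = true := by decide +kernel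

theorem a62 : tst (flat 18 L18 x62) = true := by decide +kernel
theorem b62 : tst (winv (flat 18 L18 x62)) = true := by decide +kernel

theorem a63 : tst (flat 18 L18 x63) = true := by decide +kernel
theorem b63 : tst (winv (flat 18 L18 x63)) = true := by decide +kernel

theorem a64 : tst (flat 18 L18 x64) = true := by decide +kernel
theorem b64 : tst (winv (flat 18 L18 x64)) = true := by decide +kernel

theorem a65 : tst (flat 18 L18 x65) = true := by decide +kernel
theorem b65 : tst (winv (flat 18 L18 x65)) = true := by decide +kernel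

theorem a66 : tst (flat 18 L18 x66) = true := by decide +kernel
theorem b66 : tst (winv (flat 18 L18 x66)) = true := by decide +kernel

theorem a67 : tst (flat 18 L18 x67) = true := by decide +kernel
theorem b67 : tst (winv (flat 18 L18 x67)) = true := by decide +kernel

theorem a68 : tst (flat 18 L18 x68) = true := by decide +kernel
theorem b68 : tst (winv (flat 18 L18 x68)) = true := by decide +kernel

theorem a69 : tst (flat 18 L18 x69) = true := by decide +kernel
theorem b69 : tst (winv (flat 18 L18 x69)) = true := by decide +kernel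

theorem a70 : tst (flat 18 L18 x70) = true := by decide +kernel
theorem b70 : tst (winv (flat 18 L18 x70)) = true := by decide +kernel

theorem a71 : tst (flat 18 L18 x71) = true := by decide +kernel
theorem b71 : tst (winv (flat 18 L18 x71)) = true := by decide +kernel

theorem ch5 : ∀ x ∈ xc5, x = x14 ∨ x = x32 ∨ x = x160 ∨ Ref x := by
  intro x hx
  simp only [xc5, List.mem_cons, List.not_mem_nil, or_false] at hx
  rcases hx with rfl | rfl | rfl | rfl | rfl | rfl | rfl | rfl | rfl | rfl | rfl | rfl
  · exact Or.inr (Or.inr (Or.inr (ref_of a60 b60)))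
  · exact Or.inr (Or.inr (Or.inr (ref_of a61 b61)))
  · exact Or.inr (Or.inr (Or.inr (ref_of a62 b62)))
  · exact Or.inr (Or.inr (Or.inr (ref_of a63 b63)))
  · exact Or.inr (Or.inr (Or.inr (ref_of a64 b64)))
  · exact Or.inr (Or.inr (Or.inr (ref_of a65 b65)))
  · exact Or.inr (Or.inr (Or.inr (ref_of a66 b66)))
  · exact Or.inr (Or.inr (Or.inr (ref_of a67 b67)))
  · exact Or.inr (Or.inr (Or.inr (ref_of a68 b68)))
  · exact Or.inr (Or.inr (Or.inr (ref_of a69 b69)))
  · exact Or.inr (Or.inr (Or.inr (ref_of a70 b70)))
  · exact Or.inr (Or.inr (Or.inr (ref_of a71 b71)))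

end Cfsg.Agent.H405.U33
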