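import Cfsg.Agent.H405.U33.Base
import Cfsg.Agent.H698.U33.Clo.Dat

/-!
# S5525, box H6: refutation of the candidates 72 to 83 (helper405; candidates of helper919)
-/

set_option autoImplicit false
set_option maxRecDepth 100000

namespace Cfsg.Agent.H405.U33

open Cfsg.Agent.BabyM.TransInv Cfsg.Agent.H698.U33 Cfsg.Agent.H698.U33.Clo

theorem a72 : tst (flat 18 L18 x72) = true := by decide +kernel
theorem b72 : tst (winv (flat 18 L18 x72)) = true := by decide +kernel

theorem a73 : tst (flat 18 L18 x73) = true := by decide +kernel
theorem b73 : tst (winv (flat 18 L18 x73)) = true := by decide +kernel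

theorem a74 : tst (flat 18 L18 x74) = true := by decide +kernel
theorem b74 : tst (winv (flat 18 L18 x74)) = true := by decide +kernel

theorem a75 : tst (flat 18 L18 x75) = true := by decide +kernel
theorem b75 : tst (winv (flat 18 L18 x75)) = true := by decide +kernel

theorem a76 : tst (flat 18 L18 x76) = true := by decide +kernel
theorem b76 : tst (winv (flat 18 L18 x76)) = true := by decide +kernel

theorem a77 : tst (flat 18 L18 x77) = true := by decide +kernel
theorem b77 : tst (winv (flat 18 L18 x77)) = true := by decide +kernel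

theorem a78 : tst (flat 18 L18 x78) = true := by decide +kernel
theorem b78 : tst (winv (flat 18 L18 x78)) = true := by decide +kernel

theorem a79 : tst (flat 18 L18 x79) = true := by decide +kernel
theorem b79 : tst (winv (flat 18 L18 x79)) = true := by decide +kernel

theorem a80 : tst (flat 18 L18 x80) = true := by decide +kernel
theorem b80 : tst (winv (flat 18 L18 x80)) = true := by decide +kernel

theorem a81 : tst (flat 18 L18 x81) = true := by decide +kernel
theorem b81 : tst (winv (flat 18 L18 x81)) = true := by decide +kernel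

theorem a82 : tst (flat 18 L18 x82) = true := by decide +kernel
theorem b82 : tst (winv (flat 18 L18 x82)) = true := by decide +kernel

theorem a83 : tst (flat 18 L18 x83) = true := by decide +kernel
theorem b83 : tst (winv (flat 18 L18 x83)) = true := by decide +kernel

theorem ch6 : ∀ x ∈ xc6, x = x14 ∨ x = x32 ∨ x = x160 ∨ Ref x := by
  intro x hx
  simp only [xc6, List.mem_cons, List.not_mem_nil, or_false] at hx
  rcases hx with rfl | rfl | rfl | rfl | rfl | rfl | rfl | rfl | rfl | rfl | rfl | rfl
  · exact Or.inr (Or.inr (Or.inr (ref_of a72 b72)))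
  · exact Or.inr (Or.inr (Or.inr (ref_of a73 b73)))
  · exact Or.inr (Or.inr (Or.inr (ref_of a74 b74)))
  · exact Or.inr (Or.inr (Or.inr (ref_of a75 b75)))
  · exact Or.inr (Or.inr (Or.inr (ref_of a76 b76)))
  · exact Or.inr (Or.inr (Or.inr (ref_of a77 b77)))
  · exact Or.inr (Or.inr (Or.inr (ref_of a78 b78)))
  · exact Or.inr (Or.inr (Or.inr (ref_of a79 b79)))
  · exact Or.inr (Or.inr (Or.inr (ref_of a80 b80)))
  · exact Or.inr (Or.inr (Or.inr (ref_of a81 b81)))
  · exact Or.inr (Or.inr (Or.inr (ref_of a82 b82)))
  · exact Or.inr (Or.inr (Or.inr (ref_of a83 b83)))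

end Cfsg.Agent.H405.U33
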