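import Cfsg.Agent.H405.U33.Base
import Cfsg.Agent.H698.U33.Clo.Dat

/-!
# S5525, box H6: refutation of the candidates 84 to 95 (helper405; candidates of helper919)
-/

set_option autoImplicit false
set_option maxRecDepth 100000

namespace Cfsg.Agent.H405.U33

open Cfsg.Agent.BabyM.TransInv Cfsg.Agent.H698.U33 Cfsg.Agent.H698.U33.Clo

theorem a84 : tst (flat 18 L18 x84) = true := by decide +kernel
theorem b84 : tst (winv (flat 18 L18 x84)) = true := by decide +kernel

theorem a85 : tst (flat 18 L18 x85) = true := by decide +kernel
theorem b85 : tst (winv (flat 18 L18 x85)) = true := by decide +kernel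

theorem a86 : tst (flat 18 L18 x86) = true := by decide +kernel
theorem b86 : tst (winv (flat 18 L18 x86)) = true := by decide +kernel

theorem a87 : tst (flat 18 L18 x87) = true := by decide +kernel
theorem b87 : tst (winv (flat 18 L18 x87)) = true := by decide +kernel

theorem a88 : tst (flat 18 L18 x88) = true := by decide +kernel
theorem b88 : tst (winv (flat 18 L18 x88)) = true := by decide +kernel

theorem a89 : tst (flat 18 L18 x89) = true := by decide +kernel
theorem b89 : tst (winv (flat 18 L18 x89)) = true := by decide +kernel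

theorem a90 : tst (flat 18 L18 x90) = true := by decide +kernel
theorem b90 : tst (winv (flat 18 L18 x90)) = true := by decide +kernel

theorem a91 : tst (flat 18 L18 x91) = true := by decide +kernel
theorem b91 : tst (winv (flat 18 L18 x91)) = true := by decide +kernel

theorem a92 : tst (flat 18 L18 x92) = true := by decide +kernel
theorem b92 : tst (winv (flat 18 L18 x92)) = true := by decide +kernel

theorem a93 : tst (flat 18 L18 x93) = true := by decide +kernel
theorem b93 : tst (winv (flat 18 L18 x93)) = true := by decide +kernel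

theorem a94 : tst (flat 18 L18 x94) = true := by decide +kernel
theorem b94 : tst (winv (flat 18 L18 x94)) = true := by decide +kernel

theorem a95 : tst (flat 18 L18 x95) = true := by decide +kernel
theorem b95 : tst (winv (flat 18 L18 x95)) = true := by decide +kernel

theorem ch7 : ∀ x ∈ xc7, x = x14 ∨ x = x32 ∨ x = x160 ∨ Ref x := by
  intro x hx
  simp only [xc7, List.mem_cons, List.not_mem_nil, or_false] at hx
  rcases hx with rfl | rfl | rfl | rfl | rfl | rfl | rfl | rfl | rfl | rfl | rfl | rfl
  · exact Or.inr (Or.inr (Or.inr (ref_of a84 b84)))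
  · exact Or.inr (Or.inr (Or.inr (ref_of a85 b85)))
  · exact Or.inr (Or.inr (Or.inr (ref_of a86 b86)))
  · exact Or.inr (Or.inr (Or.inr (ref_of a87 b87)))
  · exact Or.inr (Or.inr (Or.inr (ref_of a88 b88)))
  · exact Or.inr (Or.inr (Or.inr (ref_of a89 b89)))
  · exact Or.inr (Or.inr (Or.inr (ref_of a90 b90)))
  · exact Or.inr (Or.inr (Or.inr (ref_of a91 b91)))
  · exact Or.inr (Or.inr (Or.inr (ref_of a92 b92)))
  · exact Or.inr (Or.inr (Or.inr (ref_of a93 b93)))
  · exact Or.inr (Or.inr (Or.inr (ref_of a94 b94)))
  · exact Or.inr (Or.inr (Or.inr (ref_of a95 b95)))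

end Cfsg.Agent.H405.U33
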