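import Cfsg.Agent.H405.U33.Base
import Cfsg.Agent.H698.U33.Clo.Dat

/-!
# S5525, box H6: refutation of the candidates 96 to 107 (helper405; candidates of helper919)
-/

set_option autoImplicit false
set_option maxRecDepth 100000

namespace Cfsg.Agent.H405.U33

open Cfsg.Agent.BabyM.TransInv Cfsg.Agent.H698.U33 Cfsg.Agent.H698.U33.Clo

theorem a96 : tst (flat 18 L18 x96) = true := by decide +kernel
theorem b96 : tst (winv (flat 18 L18 x96)) = true := by decide +kernel

theorem a97 : tst (flat 18 L18 x97) = true := by decide +kernel
theorem b97 : tst (winv (flat 18 L18 x97)) = true := by decide +kernel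

theorem a98 : tst (flat 18 L18 x98) = true := by decide +kernel
theorem b98 : tst (winv (flat 18 L18 x98)) = true := by decide +kernel

theorem a99 : tst (flat 18 L18 x99) = true := by decide +kernel
theorem b99 : tst (winv (flat 18 L18 x99)) = true := by decide +kernel

theorem a100 : tst (flat 18 L18 x100) = true := by decide +kernel
theorem b100 : tst (winv (flat 18 L18 x100)) = true := by decide +kernel

theorem a101 : tst (flat 18 L18 x101) = true := by decide +kernel
theorem b101 : tst (winv (flat 18 L18 x101)) = true := by decide +kernel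

theorem a102 : tst (flat 18 L18 x102) = true := by decide +kernel
theorem b102 : tst (winv (flat 18 L18 x102)) = true := by decide +kernel

theorem a103 : tst (flat 18 L18 x103) = true := by decide +kernel
theorem b103 : tst (winv (flat 18 L18 x103)) = true := by decide +kernel

theorem a104 : tst (flat 18 L18 x104) = true := by decide +kernel
theorem b104 : tst (winv (flat 18 L18 x104)) = true := by decide +kernel

theorem a105 : tst (flat 18 L18 x105) = true := by decide +kernel
theorem b105 : tst (winv (flat 18 L18 x105)) = true := by decide +kernel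

theorem a106 : tst (flat 18 L18 x106) = true := by decide +kernel
theorem b106 : tst (winv (flat 18 L18 x106)) = true := by decide +kernel

theorem a107 : tst (flat 18 L18 x107) = true := by decide +kernel
theorem b107 : tst (winv (flat 18 L18 x107)) = true := by decide +kernel

theorem ch8 : ∀ x ∈ xc8, x = x14 ∨ x = x32 ∨ x = x160 ∨ Ref x := by
  intro x hx
  simp only [xc8, List.mem_cons, List.not_mem_nil, or_false] at hx
  rcases hx with rfl | rfl | rfl | rfl | rfl | rfl | rfl | rfl | rfl | rfl | rfl | rfl
  · exact Or.inr (Or.inr (Or.inr (ref_of a96 b96)))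
  · exact Or.inr (Or.inr (Or.inr (ref_of a97 b97)))
  · exact Or.inr (Or.inr (Or.inr (ref_of a98 b98)))
  · exact Or.inr (Or.inr (Or.inr (ref_of a99 b99)))
  · exact Or.inr (Or.inr (Or.inr (ref_of a100 b100)))
  · exact Or.inr (Or.inr (Or.inr (ref_of a101 b101)))
  · exact Or.inr (Or.inr (Or.inr (ref_of a102 b102)))
  · exact Or.inr (Or.inr (Or.inr (ref_of a103 b103)))
  · exact Or.inr (Or.inr (Or.inr (ref_of a104 b104)))
  · exact Or.inr (Or.inr (Or.inr (ref_of a105 b105)))
  · exact Or.inr (Or.inr (Or.inr (ref_of a106 b106)))
  · exact Or.inr (Or.inr (Or.inr (ref_of a107 b107)))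

end Cfsg.Agent.H405.U33
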