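import Cfsg.Agent.H405.U33.Base
import Cfsg.Agent.H698.U33.Clo.Dat

/-!
# S5525, box H6: refutation of the candidates 108 to 119 (helper405; candidates of helper919)
-/

set_option autoImplicit false
set_option maxRecDepth 100000

namespace Cfsg.Agent.H405.U33

open Cfsg.Agent.BabyM.TransInv Cfsg.Agent.H698.U33 Cfsg.Agent.H698.U33.Clo

theorem a108 : tst (flat 18 L18 x108) = true := by decide +kernel
theorem b108 : tst (winv (flat 18 L18 x108)) = true := by decide +kernel

theorem a109 : tst (flat 18 L18 x109) = true := by decide +kernel
theorem b109 : tst (winv (flat 18 L18 x109)) = true := by decide +kernel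

theorem a110 : tst (flat 18 L18 x110) = true := by decide +kernel
theorem b110 : tst (winv (flat 18 L18 x110)) = true := by decide +kernel

theorem a111 : tst (flat 18 L18 x111) = true := by decide +kernel
theorem b111 : tst (winv (flat 18 L18 x111)) = true := by decide +kernel

theorem a112 : tst (flat 18 L18 x112) = true := by decide +kernel
theorem b112 : tst (winv (flat 18 L18 x112)) = true := by decide +kernel

theorem a113 : tst (flat 18 L18 x113) = true := by decide +kernel
theorem b113 : tst (winv (flat 18 L18 x113)) = true := by decide +kernel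

theorem a114 : tst (flat 18 L18 x114) = true := by decide +kernel
theorem b114 : tst (winv (flat 18 L18 x114)) = true := by decide +kernel

theorem a115 : tst (flat 18 L18 x115) = true := by decide +kernel
theorem b115 : tst (winv (flat 18 L18 x115)) = true := by decide +kernel

theorem a116 : tst (flat 18 L18 x116) = true := by decide +kernel
theorem b116 : tst (winv (flat 18 L18 x116)) = true := by decide +kernel

theorem a117 : tst (flat 18 L18 x117) = true := by decide +kernel
theorem b117 : tst (winv (flat 18 L18 x117)) = true := by decide +kernel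

theorem a118 : tst (flat 18 L18 x118) = true := by decide +kernel
theorem b118 : tst (winv (flat 18 L18 x118)) = true := by decide +kernel

theorem a119 : tst (flat 18 L18 x119) = true := by decide +kernel
theorem b119 : tst (winv (flat 18 L18 x119)) = true := by decide +kernel

theorem ch9 : ∀ x ∈ xc9, x = x14 ∨ x = x32 ∨ x = x160 ∨ Ref x := by
  intro x hx
  simp only [xc9, List.mem_cons, List.not_mem_nil, or_false] at hx
  rcases hx with rfl | rfl | rfl | rfl | rfl | rfl | rfl | rfl | rfl | rfl | rfl | rfl
  · exact Or.inr (Or.inr (Or.inr (ref_of a108 b108)))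
  · exact Or.inr (Or.inr (Or.inr (ref_of a109 b109)))
  · exact Or.inr (Or.inr (Or.inr (ref_of a110 b110)))
  · exact Or.inr (Or.inr (Or.inr (ref_of a111 b111)))
  · exact Or.inr (Or.inr (Or.inr (ref_of a112 b112)))
  · exact Or.inr (Or.inr (Or.inr (ref_of a113 b113)))
  · exact Or.inr (Or.inr (Or.inr (ref_of a114 b114)))
  · exact Or.inr (Or.inr (Or.inr (ref_of a115 b115)))
  · exact Or.inr (Or.inr (Or.inr (ref_of a116 b116)))
  · exact Or.inr (Or.inr (Or.inr (ref_of a117 b117)))
  · exact Or.inr (Or.inr (Or.inr (ref_of a118 b118)))
  · exact Or.inr (Or.inr (Or.inr (ref_of a119 b119)))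

end Cfsg.Agent.H405.U33
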