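import Cfsg.Agent.H405.U33.X0
import Cfsg.Agent.H405.U33.X1
import Cfsg.Agent.H405.U33.X2
import Cfsg.Agent.H405.U33.X3
import Cfsg.Agent.H405.U33.X4
import Cfsg.Agent.H405.U33.X5
import Cfsg.Agent.H405.U33.X6
import Cfsg.Agent.H405.U33.X7
import Cfsg.Agent.H405.U33.X8
import Cfsg.Agent.H405.U33.X9
import Cfsg.Agent.H405.U33.X10
import Cfsg.Agent.H405.U33.X11
import Cfsg.Agent.H405.U33.X12
import Cfsg.Agent.H405.U33.X13
import Cfsg.Agent.H405.U33.X14
import Cfsg.Agent.H405.U33.X15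
import Cfsg.Agent.H405.U33.X16
import Cfsg.Agent.H405.U33.X17
import Cfsg.Agent.H405.U33.X18
import Cfsg.Agent.H405.U33.X19
import Cfsg.Agent.H405.U33.X20
import Cfsg.Agent.H405.U33.X21
import Cfsg.Agent.H405.U33.X22
import Cfsg.Agent.H405.U33.X23

/-!
# S5525, box H6 (helper405): all candidates of type I except `x14`, `x32`, `x160` are refuted
-/

set_option autoImplicit false

namespace Cfsg.Agent.H405.U33

open Cfsg.Agent.H698.U33.Clo

theorem ref_all : ∀ x ∈ xs, x = x14 ∨ x = x32 ∨ x = x160 ∨ Ref x := by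
  intro x hx
  rw [xs_eq] at hx
  simp only [List.mem_append] at hx
  rcases hx with hx | hx | hx | hx | hx | hx | hx | hx | hx | hx | hx | hx | hx | hx | hx | hx | hx | hx | hx | hx | hx | hx | hx | hx
  · exact ch0 x hx
  · exact ch1 x hx
  · exact ch2 x hx
  · exact ch3 x hx
  · exact ch4 x hx
  · exact ch5 x hx
  · exact ch6 x hx
  · exact ch7 x hx
  · exact ch8 x hx
  · exact ch9 x hx
  · exact ch10 x hx
  · exact ch11 x hx
  · exact ch12 x hx
  · exact ch13 x hx
  · exact ch14 x hx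
  · exact ch15 x hx
  · exact ch16 x hx
  · exact ch17 x hx
  · exact ch18 x hx
  · exact ch19 x hx
  · exact ch20 x hx
  · exact ch21 x hx
  · exact ch22 x hx
  · exact ch23 x hx

end Cfsg.Agent.H405.U33
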