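import Cfsg.Agent.H698.U33.Let
import Cfsg.Agent.H819.U33.Trip
import Cfsg.Agent.H913.U33.Ne

/-!
# S5525, box H6: refutation of the candidates of type I (helper405; method of helper921, engine of helper913)

`Ref x` : neither `x` nor `x⁻¹` completes `(u, f)` to a triple; it follows from two kernel tests.
-/

set_option autoImplicit false

namespace Cfsg.Agent.H405.U33

open Cfsg.Agent.BabyM.Conc Cfsg.Agent.BabyM.TransInv Cfsg.Agent.H819.U33 Cfsg.Agent.H698.U33

/-- the relation `rel` fails for the word `X`, the sides balanced: `X U X U⁻¹ = U⁻² X⁻¹ U⁻¹ X⁻¹ U X` -/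
noncomputable def tst (X : List Ltr) : Bool :=
  ne (X ++ wu ++ X ++ winv wu) (winv wu ++ winv wu ++ winv X ++ winv wu ++ winv X ++ wu ++ X)

theorem not_trip {X : List Ltr} {y : G} (h : tst X = true) : ¬ Trip (g wu) y (g X) := by
  intro ht
  apply ne_of h
  have h1 := ht.rel
  rw [_root_.pow_two] at h1
  simp only [g_append, g_winv]
  have h2 : g X * g wu * g X * (g wu)⁻¹ = (g X * g wu * g X * (g wu)⁻¹ * (g X)⁻¹ * (g wu)⁻¹ * g X * g wu * g X) *
      (g X)⁻¹ * (g wu)⁻¹ * (g X)⁻¹ * g wu * g X := by group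
  rw [h2, h1]

/-- Neither `x` nor `x⁻¹` gives a triple. -/
def Ref (x : List ℕ) : Prop :=
  ¬ Trip (g wu) (g wf) (g (flat 18 L18 x)) ∧ ¬ Trip (g wu) (g wf) (g (flat 18 L18 x))⁻¹

theorem ref_of {x : List ℕ} (h1 : tst (flat 18 L18 x) = true) (h2 : tst (winv (flat 18 L18 x)) = true) : Ref x := by
  refine ⟨not_trip h1, ?_⟩
  rw [← g_winv]
  exact not_trip h2

end Cfsg.Agent.H405.U33
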