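import Cfsg.Agent.H405.U33.Base
import Cfsg.Agent.H698.U33.Clo.Dat

/-!
# S5525, box H6: refutation of the candidates 0 to 11 (helper405; candidates of helper919)
-/

set_option autoImplicit false
set_option maxRecDepth 100000

namespace Cfsg.Agent.H405.U33

open Cfsg.Agent.BabyM.TransInv Cfsg.Agent.H698.U33 Cfsg.Agent.H698.U33.Clo

theorem a0 : tst (flat 18 L18 x0) = true := by decide +kernel
theorem b0 : tst (winv (flat 18 L18 x0)) = true := by decide +kernel

theorem a1 : tst (flat 18 L18 x1) = true := by decide +kernel
theorem b1 : tst (winv (flat 18 L18 x1)) = true := by decide +kernel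

theorem a2 : tst (flat 18 L18 x2) = true := by decide +kernel
theorem b2 : tst (winv (flat 18 L18 x2)) = true := by decide +kernel

theorem a3 : tst (flat 18 L18 x3) = true := by decide +kernel
theorem b3 : tst (winv (flat 18 L18 x3)) = true := by decide +kernel

theorem a4 : tst (flat 18 L18 x4) = true := by decide +kernel
theorem b4 : tst (winv (flat 18 L18 x4)) = true := by decide +kernel

theorem a5 : tst (flat 18 L18 x5) = true := by decide +kernel
theorem b5 : tst (winv (flat 18 L18 x5)) = true := by decide +kernel

theorem a6 : tst (flat 18 L18 x6) = true := by decide +kernel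
theorem b6 : tst (winv (flat 18 L18 x6)) = true := by decide +kernel

theorem a7 : tst (flat 18 L18 x7) = true := by decide +kernel
theorem b7 : tst (winv (flat 18 L18 x7)) = true := by decide +kernel

theorem a8 : tst (flat 18 L18 x8) = true := by decide +kernel
theorem b8 : tst (winv (flat 18 L18 x8)) = true := by decide +kernel

theorem a9 : tst (flat 18 L18 x9) = true := by decide +kernel
theorem b9 : tst (winv (flat 18 L18 x9)) = true := by decide +kernel

theorem a10 : tst (flat 18 L18 x10) = true := by decide +kernel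
theorem b10 : tst (winv (flat 18 L18 x10)) = true := by decide +kernel

theorem a11 : tst (flat 18 L18 x11) = true := by decide +kernel
theorem b11 : tst (winv (flat 18 L18 x11)) = true := by decide +kernel

theorem ch0 : ∀ x ∈ xc0, x = x14 ∨ x = x32 ∨ x = x160 ∨ Ref x := by
  intro x hx
  simp only [xc0, List.mem_cons, List.not_mem_nil, or_false] at hx
  rcases hx with rfl | rfl | rfl | rfl | rfl | rfl | rfl | rfl | rfl | rfl | rfl | rfl
  · exact Or.inr (Or.inr (Or.inr (ref_of a0 b0)))
  · exact Or.inr (Or.inr (Or.inr (ref_of a1 b1)))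
  · exact Or.inr (Or.inr (Or.inr (ref_of a2 b2)))
  · exact Or.inr (Or.inr (Or.inr (ref_of a3 b3)))
  · exact Or.inr (Or.inr (Or.inr (ref_of a4 b4)))
  · exact Or.inr (Or.inr (Or.inr (ref_of a5 b5)))
  · exact Or.inr (Or.inr (Or.inr (ref_of a6 b6)))
  · exact Or.inr (Or.inr (Or.inr (ref_of a7 b7)))
  · exact Or.inr (Or.inr (Or.inr (ref_of a8 b8)))
  · exact Or.inr (Or.inr (Or.inr (ref_of a9 b9)))
  · exact Or.inr (Or.inr (Or.inr (ref_of a10 b10)))
  · exact Or.inr (Or.inr (Or.inr (ref_of a11 b11)))

end Cfsg.Agent.H405.U33
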