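import Cfsg.Agent.H405.U33.Base
import Cfsg.Agent.H698.U33.Clo.Dat

/-!
# S5525, box H6: refutation of the candidates 180 to 191 (helper405; candidates of helper919)
-/

set_option autoImplicit false
set_option maxRecDepth 100000

namespace Cfsg.Agent.H405.U33

open Cfsg.Agent.BabyM.TransInv Cfsg.Agent.H698.U33 Cfsg.Agent.H698.U33.Clo

theorem a180 : tst (flat 18 L18 x180) = true := by decide +kernel
theorem b180 : tst (winv (flat 18 L18 x180)) = true := by decide +kernel

theorem a181 : tst (flat 18 L18 x181) = true := by decide +kernel
theorem b181 : tst (winv (flat 18 L18 x181)) = true := by decide +kernel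

theorem a182 : tst (flat 18 L18 x182) = true := by decide +kernel
theorem b182 : tst (winv (flat 18 L18 x182)) = true := by decide +kernel

theorem a183 : tst (flat 18 L18 x183) = true := by decide +kernel
theorem b183 : tst (winv (flat 18 L18 x183)) = true := by decide +kernel

theorem a184 : tst (flat 18 L18 x184) = true := by decide +kernel
theorem b184 : tst (winv (flat 18 L18 x184)) = true := by decide +kernel

theorem a185 : tst (flat 18 L18 x185) = true := by decide +kernel
theorem b185 : tst (winv (flat 18 L18 x185)) = true := by decide +kernel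

theorem a186 : tst (flat 18 L18 x186) = true := by decide +kernel
theorem b186 : tst (winv (flat 18 L18 x186)) = true := by decide +kernel

theorem a187 : tst (flat 18 L18 x187) = true := by decide +kernel
theorem b187 : tst (winv (flat 18 L18 x187)) = true := by decide +kernel

theorem a188 : tst (flat 18 L18 x188) = true := by decide +kernel
theorem b188 : tst (winv (flat 18 L18 x188)) = true := by decide +kernel

theorem a189 : tst (flat 18 L18 x189) = true := by decide +kernel
theorem b189 : tst (winv (flat 18 L18 x189)) = true := by decide +kernel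

theorem a190 : tst (flat 18 L18 x190) = true := by decide +kernel
theorem b190 : tst (winv (flat 18 L18 x190)) = true := by decide +kernel

theorem a191 : tst (flat 18 L18 x191) = true := by decide +kernel
theorem b191 : tst (winv (flat 18 L18 x191)) = true := by decide +kernel

theorem ch15 : ∀ x ∈ xc15, x = x14 ∨ x = x32 ∨ x = x160 ∨ Ref x := by
  intro x hx
  simp only [xc15, List.mem_cons, List.not_mem_nil, or_false] at hx
  rcases hx with rfl | rfl | rfl | rfl | rfl | rfl | rfl | rfl | rfl | rfl | rfl | rfl
  · exact Or.inr (Or.inr (Or.inr (ref_of a180 b180)))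
  · exact Or.inr (Or.inr (Or.inr (ref_of a181 b181)))
  · exact Or.inr (Or.inr (Or.inr (ref_of a182 b182)))
  · exact Or.inr (Or.inr (Or.inr (ref_of a183 b183)))
  · exact Or.inr (Or.inr (Or.inr (ref_of a184 b184)))
  · exact Or.inr (Or.inr (Or.inr (ref_of a185 b185)))
  · exact Or.inr (Or.inr (Or.inr (ref_of a186 b186)))
  · exact Or.inr (Or.inr (Or.inr (ref_of a187 b187)))
  · exact Or.inr (Or.inr (Or.inr (ref_of a188 b188)))
  · exact Or.inr (Or.inr (Or.inr (ref_of a189 b189)))
  · exact Or.inr (Or.inr (Or.inr (ref_of a190 b190)))
  · exact Or.inr (Or.inr (Or.inr (ref_of a191 b191)))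

end Cfsg.Agent.H405.U33
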